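import Cfsg.Agent.ClassicalGeometry.PSUAutMain

/-!
# Invariants of the elements of `PSU_n(q)` under all automorphisms (helper166)

* `exists_semi` : an automorphism mapping `pr g` to `pr g'` comes from a semilinear bijection `Φ` with
  `g' Φ = c Φ g`;
* `cN_eq` : the number of matrices commuting with `g`; `cnt_eq` : for diagonal matrices the number of pairs of equal entries;
* `fixN_eq` : the number of fixed vectors of elements of order dividing `m`, `m` prime to `q + 1`.
-/

set_option autoImplicit false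

open Cfsg Matrix Cfsg.Agent.LieClassical.HermBasic Cfsg.Agent.LieClassical.HermSiegel
  Cfsg.Agent.ClassicalGeometry.PSUAutCount Cfsg.Agent.LieClassical.SUBasic
open Cfsg.Agent.ClassicalGeometry.UnitAutBasic (pr pr_surjective pr_eq_pr_iff exists_scalar_of_pr_eq)

namespace Cfsg.Agent.H166.K6

variable {F : Type*} [Field F] {q n : ℕ}

/-- A semilinear bijection carrying `g` to a multiple of `g'`. -/
structure Semi (g g' : SU n F q) where
  Φ : (Fin n → F) ≃ (Fin n → F)
  ρ : F ≃+* F
  c : F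
  c0 : c ≠ 0
  cq : c ^ (q + 1) = 1
  add : ∀ v w, Φ (v + w) = Φ v + Φ w
  smul : ∀ (a : F) v, Φ (a • v) = ρ a • Φ v
  eq : ∀ v, act g' (Φ v) = c • Φ (act g v)

theorem exists_semi [Fintype F] (hF : Fintype.card F = q ^ 2) (hn : 3 ≤ n) (h32 : ¬ (n = 3 ∧ q = 2))
    (σ : PSU n F q ≃* PSU n F q) {g g' : SU n F q} (h : σ (pr n F q g) = pr n F q g') : Nonempty (Semi g g') := by
  obtain ⟨A, ρ, hA⟩ := ClassicalGeometry.PSUAutMain.exists_toAut hF hn h32 (σ : MulAut (PSU n F q))
  have h1 : pr n F q (semiConj A ρ g) = pr n F q g' := by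
    rw [← toAut_pr, ← hA]
    exact h
  obtain ⟨c, hc, hcx⟩ := exists_scalar_of_pr_eq hF hn h1
  let Φ : (Fin n → F) ≃ (Fin n → F) :=
    { toFun := fun v => gm A *ᵥ fun i => ρ (v i)
      invFun := fun v => fun i => ρ.symm ((gm A⁻¹ *ᵥ v) i)
      left_inv := fun v => by
        funext i
        show ρ.symm ((gm A⁻¹ *ᵥ (gm A *ᵥ fun i => ρ (v i))) i) = v i
        rw [gm_inv_mulVec, ρ.symm_apply_apply]
      right_inv := fun v => by
        show gm A *ᵥ (fun i => ρ (ρ.symm ((gm A⁻¹ *ᵥ v) i))) = v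
        have : (fun i => ρ (ρ.symm ((gm A⁻¹ *ᵥ v) i))) = gm A⁻¹ *ᵥ v := by
          funext i
          rw [ρ.apply_symm_apply]
        rw [this, gm_mulVec_inv] }
  have hΦ : ∀ v, Φ v = gm A *ᵥ fun i => ρ (v i) := fun _ => rfl
  refine ⟨⟨Φ, ρ, c, ?_, ?_, ?_, ?_, ?_⟩⟩
  · rintro rfl
    rw [zero_mul] at hc
    exact zero_ne_one hc
  · rw [pow_succ', hc]
  · intro v w
    rw [hΦ, hΦ, hΦ, ← mulVec_add]
    congr 1
    funext i
    exact map_add ρ _ _
  · intro a v
    rw [hΦ, hΦ, ← mulVec_smul]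
    congr 1
    funext i
    exact map_mul ρ _ _
  · intro v
    rw [hcx, hΦ, act_semiConj]
    rfl

/-- The number of matrices commuting with `g`. -/
noncomputable def cN (g : SU n F q) : ℕ := Nat.card {X : Matrix (Fin n) (Fin n) F // X * mat g = mat g * X}

theorem Semi.map_zero {g g' : SU n F q} (S : Semi g g') : S.Φ 0 = 0 := by
  have h := S.smul 0 0
  have h0 : S.ρ 0 = 0 := _root_.map_zero S.ρ
  rwa [zero_smul, h0, zero_smul] at h

theorem Semi.cN_le [Finite F] {g g' : SU n F q} (S : Semi g g') : cN g ≤ cN g' := by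
  classical
  -- conjugation
  let f : Matrix (Fin n) (Fin n) F → ((Fin n → F) →ₗ[F] (Fin n → F)) := fun X =>
    { toFun := fun v => S.Φ (X *ᵥ S.Φ.symm v)
      map_add' := fun v w => by
        have h1 : S.Φ.symm (v + w) = S.Φ.symm v + S.Φ.symm w := by
          apply S.Φ.injective
          rw [S.add, Equiv.apply_symm_apply, Equiv.apply_symm_apply, Equiv.apply_symm_apply]
        rw [h1, mulVec_add, S.add]
      map_smul' := fun a v => by
        have h1 : S.Φ.symm (a • v) = S.ρ.symm a • S.Φ.symm v := by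
          apply S.Φ.injective
          rw [S.smul, Equiv.apply_symm_apply, Equiv.apply_symm_apply, S.ρ.apply_symm_apply]
        rw [h1, mulVec_smul, S.smul, S.ρ.apply_symm_apply, RingHom.id_apply] }
  have hf : ∀ X v, f X v = S.Φ (X *ᵥ S.Φ.symm v) := fun _ _ => rfl
  refine Nat.card_le_card_of_injective (fun X => ⟨LinearMap.toMatrix' (f X.1), ?_⟩) ?_
  · apply Matrix.ext_of_mulVec_single
    intro i
    generalize (Pi.single i 1 : Fin n → F) = w
    rw [← mulVec_mulVec, ← mulVec_mulVec, ← act_def, ← act_def, ← Matrix.toLin'_apply, Matrix.toLin'_toMatrix',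
      ← Matrix.toLin'_apply, Matrix.toLin'_toMatrix', hf, hf]
    obtain ⟨v, rfl⟩ := S.Φ.surjective w
    have h1 : S.Φ.symm (act g' (S.Φ v)) = S.ρ.symm S.c • act g v := by
      apply S.Φ.injective
      rw [Equiv.apply_symm_apply, S.smul, S.ρ.apply_symm_apply, S.eq]
    rw [h1, mulVec_smul, S.smul, S.ρ.apply_symm_apply, Equiv.symm_apply_apply, S.eq, act_def, act_def, mulVec_mulVec,
      mulVec_mulVec, X.2]
  · intro X Y h
    have h1 : f X.1 = f Y.1 := LinearMap.toMatrix'.injective (congrArg Subtype.val h)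
    apply Subtype.ext
    apply Matrix.ext_of_mulVec_single
    intro i
    have h2 := congrArg (fun L => L (S.Φ (Pi.single i 1))) h1
    simp only [hf, Equiv.symm_apply_apply] at h2
    exact S.Φ.injective h2

theorem cN_eq [Fintype F] (hF : Fintype.card F = q ^ 2) (hn : 3 ≤ n) (h32 : ¬ (n = 3 ∧ q = 2))
    (σ : PSU n F q ≃* PSU n F q) {g g' : SU n F q} (h : σ (pr n F q g) = pr n F q g') : cN g = cN g' := by
  obtain ⟨S⟩ := exists_semi hF hn h32 σ h
  obtain ⟨S'⟩ := exists_semi hF hn h32 σ.symm (g := g') (g' := g) (by rw [← h, σ.symm_apply_apply])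
  exact le_antisymm S.cN_le S'.cN_le

/-- The number of pairs of equal entries. -/
def cnt [DecidableEq F] (a : Fin n → F) : ℕ := ∑ i, ∑ j, if a i = a j then 1 else 0

theorem cN_diag [Finite F] [DecidableEq F] (a : Fin n → F) (hd : ∏ i, a i = 1) (ha : ∀ i, a i ^ (q + 1) = 1) :
    cN (suDiag q a hd ha) = Nat.card F ^ cnt a := by
  classical
  have key : ∀ X : Matrix (Fin n) (Fin n) F, X * mat (suDiag q a hd ha) = mat (suDiag q a hd ha) * X ↔
      ∀ i j, a i ≠ a j → X i j = 0 := by
    intro X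
    rw [mat_def, coe_suDiag]
    constructor
    · intro h i j hij
      have h1 := congrFun (congrFun h i) j
      rw [Matrix.mul_diagonal, Matrix.diagonal_mul] at h1
      have h2 : X i j * (a j - a i) = 0 := by linear_combination h1
      rcases mul_eq_zero.1 h2 with h3 | h3
      · exact h3
      · exact absurd (sub_eq_zero.1 h3).symm hij
    · intro h
      ext i j
      rw [Matrix.mul_diagonal, Matrix.diagonal_mul]
      by_cases hij : a i = a j
      · rw [hij, mul_comm]
      · rw [h i j hij, zero_mul, mul_zero]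
  let e : {X : Matrix (Fin n) (Fin n) F // X * mat (suDiag q a hd ha) = mat (suDiag q a hd ha) * X} ≃
      ({ij : Fin n × Fin n // a ij.1 = a ij.2} → F) :=
    { toFun := fun X ij => X.1 ij.1.1 ij.1.2
      invFun := fun f => ⟨fun i j => if h : a i = a j then f ⟨(i, j), h⟩ else 0, (key _).2 fun i j hij => dif_neg hij⟩
      left_inv := fun X => by
        apply Subtype.ext
        funext i j
        by_cases hij : a i = a j
        · exact dif_pos hij
        · exact (dif_neg hij).trans ((key X.1).1 X.2 i j hij).symm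
      right_inv := fun f => by
        funext ij
        exact dif_pos ij.2 }
  rw [cN, Nat.card_congr e, Nat.card_fun]
  congr 1
  rw [Nat.card_eq_fintype_card, Fintype.card_subtype, cnt, Finset.card_filter, ← Finset.univ_product_univ,
    Finset.sum_product]

theorem cnt_eq [Fintype F] [DecidableEq F] (hF : Fintype.card F = q ^ 2) (hn : 3 ≤ n) (h32 : ¬ (n = 3 ∧ q = 2))
    (σ : PSU n F q ≃* PSU n F q) {a b : Fin n → F} {hd : ∏ i, a i = 1} {ha : ∀ i, a i ^ (q + 1) = 1}
    {hd' : ∏ i, b i = 1} {hb : ∀ i, b i ^ (q + 1) = 1}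
    (h : σ (pr n F q (suDiag q a hd ha)) = pr n F q (suDiag q b hd' hb)) : cnt a = cnt b := by
  have h1 := cN_eq hF hn h32 σ h
  rw [cN_diag, cN_diag] at h1
  have h2 : 1 < Nat.card F := Finite.one_lt_card
  exact Nat.pow_right_injective h2 h1

/-- The number of fixed vectors. -/
noncomputable def fixN (g : SU n F q) : ℕ := Nat.card {v : Fin n → F // act g v = v}

theorem Semi.c_eq_one {g g' : SU n F q} (S : Semi g g') {m : ℕ} (hm : m.Coprime (q + 1)) (hn : n ≠ 0)
    (hg : g ^ m = 1) (hg' : g' ^ m = 1) : S.c = 1 := by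
  have h1 : ∀ (k : ℕ) (v : Fin n → F), act (g' ^ k) (S.Φ v) = S.c ^ k • S.Φ (act (g ^ k) v) := by
    intro k
    induction k with
    | zero => intro v; rw [pow_zero, pow_zero, pow_zero, act_one, act_one, one_smul]
    | succ k ih =>
      intro v
      rw [pow_succ, act_mul, S.eq, act_smul, ih, smul_smul, pow_succ, pow_succ, act_mul, mul_comm]
  have h2 : S.c ^ m = 1 := by
    obtain ⟨v, hv⟩ := S.Φ.surjective (fun _ => (1 : F))
    have h3 := h1 m v
    rw [hg, hg', act_one, act_one, hv] at h3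
    have h4 := congrFun h3 ⟨0, Nat.pos_of_ne_zero hn⟩
    rw [Pi.smul_apply, smul_eq_mul, mul_one] at h4
    exact h4.symm
  have h3 := pow_gcd_eq_one.2 ⟨h2, S.cq⟩
  rwa [hm, pow_one] at h3

theorem fixN_eq [Fintype F] (hF : Fintype.card F = q ^ 2) (hn : 3 ≤ n) (h32 : ¬ (n = 3 ∧ q = 2))
    (σ : PSU n F q ≃* PSU n F q) {g g' : SU n F q} (h : σ (pr n F q g) = pr n F q g') {m : ℕ}
    (hm : m.Coprime (q + 1)) (hg : g ^ m = 1) (hg' : g' ^ m = 1) : fixN g = fixN g' := by
  have key : ∀ {g g' : SU n F q} (S : Semi g g'), g ^ m = 1 → g' ^ m = 1 → fixN g ≤ fixN g' := by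
    intro g g' S hg hg'
    have hc := S.c_eq_one hm (by omega) hg hg'
    refine Nat.card_le_card_of_injective (fun v => ⟨S.Φ v.1, ?_⟩) ?_
    · rw [S.eq, hc, one_smul, v.2]
    · intro v w hvw
      exact Subtype.ext (S.Φ.injective (congrArg Subtype.val hvw))
  obtain ⟨S⟩ := exists_semi hF hn h32 σ h
  obtain ⟨S'⟩ := exists_semi hF hn h32 σ.symm (g := g') (g' := g) (by rw [← h, σ.symm_apply_apply])
  exact le_antisymm (key S hg hg') (key S' hg' hg)

end Cfsg.Agent.H166.K6
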